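import Cfsg.Agent.S2F.Fus

/-! Computations in the Sylow subgroup of `²F₄(q)`. -/

set_option autoImplicit false
set_option linter.unusedSectionVars false
set_option linter.unusedSimpArgs false
set_option maxRecDepth 20000

namespace Cfsg.Agent.Q17.F24

open Subgroup Cfsg.Agent.Oct Cfsg.Agent.S2F

variable {K : Type*} [Field K] [Tw K]

theorem zs_of {u : U K} {a b : K} (ha : a ≠ 0) (hb : b ≠ 0) (h1 : u * X1 a = X1 a * u)
    (h2 : u * Y8 b = Y8 b * u) (h3 : u * X8 1 = X8 1 * u) : u ∈ Zs := by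
  have ha' : σ a ≠ 0 := fun e => ha (σ_eq_zero.1 e)
  have hb' : σ b ≠ 0 := fun e => hb (σ_eq_zero.1 e)
  have a1 := congrArg U.y2 h1
  have a2 := congrArg U.y6 h1
  have a3 := congrArg U.y2 h2
  have a4 := congrArg U.y6 h2
  have a5 := congrArg U.x7 h2
  have a6 := congrArg U.x2 h1
  have a7 := congrArg U.x3 h1
  have a8 := congrArg U.x4 h1
  have a9 := congrArg U.x3 h2
  have a10 := congrArg U.x6 h3
  have a11 := congrArg U.x6 h2
  simp only [UE] at a1 a3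
  have y8 : u.y8 = 0 := by grind
  have x1 : u.x1 = 0 := by grind
  simp only [UE, y8, x1] at a2 a4
  have x8 : u.x8 = 0 := by grind
  have y2 : u.y2 = 0 := by grind
  simp only [UE, y8, x8, x1, y2] at a5
  have y6 : u.y6 = 0 := by grind
  simp only [UE, y8, x8, x1, y2, y6] at a6 a7 a9
  have x2 : u.x2 = 0 := by grind
  have x7 : u.x7 = 0 := by grind
  have y4 : u.y4 = 0 := by grind
  simp only [UE, y8, x8, x1, y2, y6, x2, x7, y4] at a8 a10 a11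
  rw [mem_Zs]
  grind

variable {D : Subgroup (U K)}

theorem step {c v : U K} (hc : c ∈ D) (h : c⁻¹ * v ∈ D) : v ∈ D := (mul_mem_cancel_left (inv_mem hc)).1 h

theorem dec_mem {u : U K} (h1 : X1 u.x1 ∈ D) (h2 : Y2 u.y2 ∈ D) (h3 : X2 u.x2 ∈ D) (h4 : X3 u.x3 ∈ D)
    (h5 : Y4 u.y4 ∈ D) (h6 : X4 u.x4 ∈ D) (h7 : X5 u.x5 ∈ D) (h8 : Y6 u.y6 ∈ D) (h9 : X6 u.x6 ∈ D)
    (h10 : X7 u.x7 ∈ D) (h11 : Y8 u.y8 ∈ D) (h12 : X8 u.x8 ∈ D) : u ∈ D := by
  rw [decomp u]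
  exact mul_mem (mul_mem (mul_mem (mul_mem (mul_mem (mul_mem (mul_mem (mul_mem (mul_mem (mul_mem
    (mul_mem h1 h2) h3) h4) h5) h6) h7) h8) h9) h10) h11) h12

theorem zero_mem {f : K → U K} (h : f 0 = 1) {a : K} (ha : a = 0) : f a ∈ D := by
  rw [ha, h]; exact one_mem _

theorem sq_mem [Finite K] (big : ∃ x : K, x ≠ 0 ∧ x ≠ 1) (h : ∀ a b : U K, a * b * a⁻¹ * b⁻¹ ∈ D)
    (u : U K) : u * u ∈ D := by
  obtain ⟨x, x0, x1⟩ := big
  have xs : σ x + x ≠ 0 := fun e => σ_ne_self x0 x1 (by grind)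
  have m4 : ∀ s, X4 s ∈ D := fun s => by
    convert h (X6 s) (X1 1) using 1; ext <;> simp only [UE] <;> grind
  have m6 : ∀ s, X6 s ∈ D := fun s => by
    convert h (X5 s) (Y8 1) using 1; ext <;> simp only [UE] <;> grind
  have m5 : ∀ s, X5 s ∈ D := fun s => by
    convert h (Y6 s) (Y4 1) using 1; ext <;> simp only [UE] <;> grind
  have m3 : ∀ s, X3 s ∈ D := fun s => by
    convert h (Y4 s) (Y2 1) using 1; ext <;> simp only [UE] <;> grind
  have m7 : ∀ s, X7 s ∈ D := fun s => by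
    convert h (Y8 1) (Y6 s) using 1; ext <;> simp only [UE] <;> grind
  have m2 : ∀ s, X2 s ∈ D := fun s => by
    convert h (Y4 s) (X1 1) using 1; ext <;> simp only [UE] <;> grind
  have m8 : ∀ s, X8 s ∈ D := fun s => by
    by_cases s0 : s = 0
    · exact zero_mem X8_zero s0
    obtain ⟨c, hc⟩ := exists_l2 (div_ne_zero s0 xs)
    rw [eq_div_iff xs] at hc
    convert h (Y8 (c * x)) (Y8 c) using 1; ext <;> simp only [UE] <;> grind
  have lo : ∀ v : U K, v.x1 = 0 → v.y2 = 0 → v.y4 = 0 → v.y6 = 0 → v.y8 = 0 → v ∈ D :=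
    fun v a1 a2 a3 a4 a5 => dec_mem (zero_mem X1_zero a1) (zero_mem Y2_zero a2) (m2 _) (m3 _)
      (zero_mem Y4_zero a3) (m4 _) (m5 _) (zero_mem Y6_zero a4) (m6 _) (m7 _) (zero_mem Y8_zero a5) (m8 _)
  have n4 : ∀ s, Y4 s ∈ D := fun s => by
    obtain ⟨a, rfl⟩ : ∃ a, s = a * (σ x + x) := ⟨s / _, (div_mul_cancel₀ s xs).symm⟩
    refine step (mul_mem (h (X8 a) (X1 x)) (h (X8 (a * x)) (X1 1))) (lo _ ?_ ?_ ?_ ?_ ?_) <;>
      simp only [UE] <;> grind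
  have n6 : ∀ s, Y6 s ∈ D := fun s =>  by
    refine step (mul_mem (h (X8 s) (X1 1)) (n4 s)) (lo _ ?_ ?_ ?_ ?_ ?_) <;> simp only [UE] <;> grind
  have lo2 : ∀ v : U K, v.x1 = 0 → v.y2 = 0 → v.y8 = 0 → v ∈ D :=
    fun v a1 a2 a5 => dec_mem (zero_mem X1_zero a1) (zero_mem Y2_zero a2) (m2 _) (m3 _)
      (n4 _) (m4 _) (m5 _) (n6 _) (m6 _) (m7 _) (zero_mem Y8_zero a5) (m8 _)
  refine step (h (Y8 (u * u).y2) (X1 1)) (lo2 _ ?_ ?_ ?_) <;> simp only [UE] <;> grind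

theorem of_wt {f : K → U K} (hf : ∀ a b, f (a + b) = f a * f b) {χ : K} (h1 : χ ≠ 1)
    (h : ∀ a, (f a)⁻¹ * f (χ * a) ∈ D) (s : K) : f s ∈ D := by
  have h2 : χ + 1 ≠ 0 := add_one_ne h1
  have := h (s / (χ + 1))
  rwa [show χ * (s / (χ + 1)) = s / (χ + 1) + s by field_simp; grind, hf, inv_mul_cancel_left] at this

theorem U0_le {κ ν : Kˣ} (h1 : κ ≠ 1) (e : (κ : K) * σ (κ : K) * ν = 1)
    (h : ∀ u ∈ U0, u⁻¹ * ζ κ (η ν u) ∈ D) : U0 ≤ D := by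
  have k1 : (κ : K) ≠ 1 := fun c => h1 (Units.ext c)
  have k0 := κ.ne_zero
  have s0 := σu_ne κ
  have s1 : σ (κ : K) ≠ 1 := fun c => k1 (σ_inj (by rw [c, map_one]))
  have l2 : (κ : K) * σ (κ : K) ≠ 1 := fun c => h1 (eq_one_l2 c)
  have l4 : (κ : K) ^ 2 * σ (κ : K) ≠ 1 := fun c => h1 (eq_one_l4 c)
  have e' := congrArg σ e
  have ei : ((ν⁻¹ : Kˣ) : K) = κ * σ (κ : K) := by
    rw [Units.val_inv_eq_inv_val]; exact inv_eq_of_mul_eq_one_left e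
  simp only [UE] at e'
  have sq : ∀ {x : K}, x ≠ 1 → x ^ 2 ≠ 1 := fun hx c => hx (eq_one_of_pow_two_pow (k := 1) c)
  have l7 : (κ : K) ^ 4 * σ (κ : K) ^ 3 ≠ 1 := fun c => by
    have c' := congrArg σ c
    simp only [UE] at c'
    refine sq k1 ?_
    have a1 : ((κ : K) ^ 4 * σ (κ : K) ^ 3) ^ 4 = (σ (κ : K) ^ 4 * ((κ : K) ^ 2) ^ 3) ^ 3 := by
      rw [c, c']; simp
    have a2 : (κ : K) ^ 16 * σ (κ : K) ^ 12 * ((κ : K) ^ 2 - 1) = 0 := by linear_combination -a1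
    simpa [k0, s0, sub_eq_zero] using a2
  have m1 : ∀ s, X1 s ∈ D := of_wt (fun a b => by ext <;> simp only [UE]) (sq l4) fun a => by
    convert h (X1 a) ⟨rfl, rfl⟩ using 2; ext <;> simp only [UE, ζ, ei] <;> grind
  have m2 : ∀ s, X2 s ∈ D := of_wt (fun a b => by ext <;> simp only [UE]) l7 fun a => by
    convert h (X2 a) ⟨rfl, rfl⟩ using 2; ext <;> simp only [UE, ζ, ei] <;> grind
  have m3 : ∀ s, X3 s ∈ D := of_wt (fun a b => by ext <;> simp only [UE]) (sq l2) fun a => by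
    convert h (X3 a) ⟨rfl, rfl⟩ using 2; ext <;> simp only [UE, ζ, ei] <;> grind
  have m4 : ∀ s, X4 s ∈ D := of_wt (fun a b => by ext <;> simp only [UE]) l4 fun a => by
    convert h (X4 a) ⟨rfl, rfl⟩ using 2; ext <;> simp only [UE, ζ, ei] <;> grind
  have m6 : ∀ s, X6 s ∈ D := of_wt (χ := σ (ν : K)) (fun a b => by ext <;> simp only [UE])
    (fun c => l4 (by grind)) fun a => by
      convert h (X6 a) ⟨rfl, rfl⟩ using 2; ext <;> simp only [UE, ζ, ei] <;> grind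
  have m7 : ∀ s, X7 s ∈ D := of_wt (χ := (ν : K) ^ 2) (fun a b => by ext <;> simp only [UE])
    (fun c => sq l2 (by grind)) fun a => by
      convert h (X7 a) ⟨rfl, rfl⟩ using 2; ext <;> simp only [UE, ζ, ei] <;> grind
  have m8 : ∀ s, X8 s ∈ D := of_wt (χ := σ (ν : K) * (ν : K) ^ 2) (fun a b => by ext <;> simp only [UE])
    (fun c => l7 (by grind)) fun a => by
      convert h (X8 a) ⟨rfl, rfl⟩ using 2; ext <;> simp only [UE, ζ, ei] <;> grind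
  have n4 : ∀ s, Y4 s ∈ D := fun s => by
    obtain ⟨a, rfl⟩ : ∃ a, s = (σ (κ : K) + 1) * a := ⟨s / _, (mul_div_cancel₀ s (add_one_ne s1)).symm⟩
    refine step (h (Y4 a) ⟨rfl, rfl⟩) ?_
    rw [eq_X4 (a := _ * _) (by simp only [mem_Zs, UE, ζ, ei]; grind)]
    exact m4 _
  have n6 : ∀ s, Y6 s ∈ D := fun s => by
    have : (κ : K) * ν ≠ 1 := fun c => s1 (by grind)
    obtain ⟨a, rfl⟩ : ∃ a, s = ((κ : K) * ν + 1) * a := ⟨s / _, (mul_div_cancel₀ s (add_one_ne this)).symm⟩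
    refine step (h (Y6 a) ⟨rfl, rfl⟩) ?_
    convert m6 (((Y6 a)⁻¹ * ζ κ (η ν (Y6 a)))⁻¹ * Y6 (((κ : K) * ν + 1) * a)).x6 using 1
    ext <;> simp only [UE, ζ, ei] <;> grind
  have m5 : ∀ s, X5 s ∈ D := fun s => by
    convert mul_mem (mul_mem (mul_mem (n6 s) (n4 1)) (inv_mem (n6 s))) (inv_mem (n4 1)) using 1
    ext <;> simp only [UE] <;> grind
  exact fun u hu => dec_mem (m1 _) (zero_mem Y2_zero hu.1) (m2 _) (m3 _) (n4 _) (m4 _) (m5 _) (n6 _)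
    (m6 _) (m7 _) (zero_mem Y8_zero hu.2) (m8 _)

theorem exists_prime {n : ℕ} (hn : 2 ≤ n) : ∃ p, p.Prime ∧ p ≠ 2 ∧ p ∣ 2 ^ n - 1 ∧ ¬ p ∣ n := by
  have ne : n.primeFactors.Nonempty := Nat.nonempty_primeFactors.2 hn
  have hr := Nat.mem_primeFactors.1 (n.primeFactors.max'_mem ne)
  set r := n.primeFactors.max' ne
  have h1 : 4 ≤ 2 ^ r := Nat.pow_le_pow_right (n := 2) (by norm_num) hr.1.two_le
  have hp := Nat.minFac_prime (n := 2 ^ r - 1) (by omega)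
  have hd := Nat.minFac_dvd (2 ^ r - 1)
  set p := (2 ^ r - 1).minFac
  have := Fact.mk hp
  have := Fact.mk hr.1
  have h2 : (2 : ZMod p) ^ r = 1 := by
    have := (ZMod.natCast_eq_zero_iff _ _).2 hd
    rw [Nat.cast_sub (by omega), sub_eq_zero] at this
    exact_mod_cast this
  have h0 : (2 : ZMod p) ≠ 0 := fun c => by simp [c, hr.1.ne_zero] at h2
  have h3 : orderOf (2 : ZMod p) = r := orderOf_eq_prime h2 fun c =>
    one_ne_zero (α := ZMod p) (by linear_combination c)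
  have h4 := Nat.le_of_dvd (by have := hp.two_le; omega) (h3 ▸ ZMod.orderOf_dvd_card_sub_one h0)
  refine ⟨p, hp, fun c => h0 ((ZMod.natCast_eq_zero_iff 2 p).2 c.dvd), hd.trans ?_, fun c => ?_⟩
  · obtain ⟨k, hk⟩ := hr.2.1
    rw [hk, pow_mul]
    simpa using Nat.sub_dvd_pow_sub_pow (2 ^ r) 1 k
  · have := n.primeFactors.le_max' p (Nat.mem_primeFactors.2 ⟨hp, c, by omega⟩)
    have := hp.two_le
    omega

end Cfsg.Agent.Q17.F24
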